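import Cfsg.Agent.H313.WfOm.Base
import Cfsg.Agent.H862.T5.OFrame

/-!
# The component `Ω(U)` of a nondegenerate subspace (helper313, task 4025)

`Pr Q q j π` : `π` is the orthogonal projection to the image of the isometric embedding `j`;
`fP` : `E q →* P Q`, the elements acting on the image of `j` and trivially on its orthogonal complement.
-/

set_option autoImplicit false
set_option linter.unusedSectionVars false

namespace Cfsg.Agent.H313.WfOm

open QuadraticMap Module Cfsg.Agent.LieClassical.OrthCore Cfsg.Agent.LieClassical.OrthTrans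
  Cfsg.Agent.LieClassical.OrthSimple
open Cfsg.Agent.ClassicalGeometry.OrthSemi Cfsg.Agent.ClassicalGeometry.OrthAut1
open Cfsg.Agent.H862.T5.OBase Cfsg.Agent.H862.T5.OFrame
open Cfsg.Agent.H957.T5V
open Cfsg.Agent.H208.Parity (ofO)
open Cfsg.Agent.H533.Wf (QS)

variable {F V U : Type*} [Field F] [AddCommGroup V] [Module F V] [AddCommGroup U] [Module F U]
  {Q : QuadraticForm F V} {q : QuadraticForm F U} {j : U →ₗ[F] V} {π : V →ₗ[F] U}

/-- `π` is adjoint to `j`. -/
structure Pr (Q : QuadraticForm F V) (q : QuadraticForm F U) (j : U →ₗ[F] V) (π : V →ₗ[F] U) : Prop where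
  adj : ∀ v u, polar q (π v) u = polar Q v (j u)

theorem exists_pr [FiniteDimensional F U] (hq : Nondeg q) : ∃ π : V →ₗ[F] U, Pr Q q j π := by
  let B : U →ₗ[F] (Module.Dual F U) := polarBilin q
  have hB : Function.Injective B := by
    rw [← LinearMap.ker_eq_bot, LinearMap.ker_eq_bot']
    intro u hu
    apply hq
    intro v
    have := LinearMap.congr_fun hu v
    exact this
  let e := LinearMap.linearEquivOfInjective B hB (Subspace.dual_finrank_eq (K := F) (V := U)).symm
  refine ⟨e.symm.toLinearMap ∘ₗ j.dualMap ∘ₗ polarBilin Q, ⟨fun v u => ?_⟩⟩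
  have h1 : B (e.symm (j.dualMap (polarBilin Q v))) = j.dualMap (polarBilin Q v) := by
    have : e (e.symm (j.dualMap (polarBilin Q v))) = j.dualMap (polarBilin Q v) := e.apply_symm_apply _
    exact this
  have h2 := LinearMap.congr_fun h1 u
  exact h2

theorem Pr.left (h : Pr Q q j π) (he : Emb Q q j) (hq : Nondeg q) (u : U) : π (j u) = u := by
  rw [← sub_eq_zero]
  apply hq
  intro v
  rw [polar_sub_left, h.adj, he.polar, sub_self]

theorem Pr.perp (h : Pr Q q j π) {v : V} (hv : π v = 0) (u : U) : polar Q v (j u) = 0 := by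
  rw [← h.adj, hv]
  simp [QuadraticMap.polar]

/-- the extension of `g` by the identity on the orthogonal complement -/
def extL (j : U →ₗ[F] V) (π : V →ₗ[F] U) (g : U →ₗ[F] U) : V →ₗ[F] V :=
  LinearMap.id + j ∘ₗ (g - LinearMap.id) ∘ₗ π

theorem extL_apply (g : U →ₗ[F] U) (v : V) : extL j π g v = v + j (g (π v) - π v) := rfl

theorem extL_comp (hπ : ∀ u, π (j u) = u) (g h : U →ₗ[F] U) :
    extL j π g ∘ₗ extL j π h = extL j π (g ∘ₗ h) := by
  ext v
  rw [LinearMap.comp_apply, extL_apply, extL_apply, extL_apply, map_add, hπ, add_sub_cancel,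
    LinearMap.comp_apply, add_assoc, ← map_add]
  congr 2
  abel

theorem extL_one : extL j π (LinearMap.id) = LinearMap.id := by
  ext v
  rw [extL_apply, LinearMap.id_apply, sub_self, map_zero, add_zero, LinearMap.id_apply]

/-- the extension as a homomorphism -/
def ext (hπ : ∀ u, π (j u) = u) : (U ≃ₗ[F] U) →* (V ≃ₗ[F] V) where
  toFun g := LinearEquiv.ofLinearMap (extL j π g.toLinearMap) (extL j π g.symm.toLinearMap)
    (by
      rw [extL_comp hπ, LinearEquiv.comp_symm, extL_one])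
    (by
      rw [extL_comp hπ, LinearEquiv.symm_comp, extL_one])
  map_one' := by
    ext v
    show extL j π LinearMap.id v = v
    rw [extL_one]; rfl
  map_mul' g h := by
    ext v
    show extL j π (g.toLinearMap ∘ₗ h.toLinearMap) v = extL j π g.toLinearMap (extL j π h.toLinearMap v)
    rw [← extL_comp hπ]; rfl

theorem ext_apply (hπ : ∀ u, π (j u) = u) (g : U ≃ₗ[F] U) (v : V) :
    ext hπ g v = v + j (g (π v) - π v) := rfl

theorem ext_j (hπ : ∀ u, π (j u) = u) (g : U ≃ₗ[F] U) (u : U) : ext hπ g (j u) = j (g u) := by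
  rw [ext_apply, hπ, map_sub]
  abel

theorem ext_siegel (hπ : ∀ u, π (j u) = u) (he : Emb Q q j) (h : Pr Q q j π) {u w : U} (hu : q u = 0)
    (hw : polar q u w = 0) :
    ext hπ (siegel q u w hu hw) = siegel Q (j u) (j w) (by rw [he.form, hu]) (by rw [he.polar, hw]) := by
  ext v
  have h1 : ∀ u, polar q u (π v) = polar Q (j u) v := fun u => by
    rw [polar_comm, h.adj, polar_comm]
  rw [ext_apply, siegel_apply, siegel_apply, h1, h1, he.form]
  simp only [map_add, map_sub, map_smul]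
  abel

theorem ext_mem_E (hπ : ∀ u, π (j u) = u) (he : Emb Q q j) (h : Pr Q q j π) {g : U ≃ₗ[F] U} (hg : g ∈ E q) :
    ext hπ g ∈ E Q := by
  have h1 : E q ≤ (E Q).comap (ext hπ) := by
    rw [E, Subgroup.closure_le]
    rintro _ ⟨u, w, hu, hw, rfl⟩
    show ext hπ _ ∈ E Q
    rw [ext_siegel hπ he h]
    exact siegel_mem_E _ _
  exact h1 hg

/-- `E q → E Q` -/
def fE (hπ : ∀ u, π (j u) = u) (he : Emb Q q j) (h : Pr Q q j π) : ↥(E q) →* ↥(E Q) :=
  ((ext hπ).comp (E q).subtype).codRestrict (E Q) fun g => ext_mem_E hπ he h g.2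

theorem coe_fE (hπ : ∀ u, π (j u) = u) (he : Emb Q q j) (h : Pr Q q j π) (g : E q) :
    (fE hπ he h g : V ≃ₗ[F] V) = ext hπ g.1 := rfl

/-- `E q → P Q` -/
def fP (hπ : ∀ u, π (j u) = u) (he : Emb Q q j) (h : Pr Q q j π) : ↥(E q) →* P Q :=
  (QuotientGroup.mk' (Subgroup.center ↥(E Q))).comp (fE hπ he h)

theorem scal_of_center (hG : Good Q) {z : ↥(E Q)} (hz : z ∈ Subgroup.center ↥(E Q)) :
    ∃ a : F, ∀ v, (z : V ≃ₗ[F] V) v = a • v := by
  have h1 : conjE Q (ofO z.1 (E_le_O z.2)) = 1 := by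
    ext k v
    rw [coe_conjE, conjLin_apply]
    have h2 := Subgroup.mem_center_iff.1 hz k
    have h3 : ∀ v, (k.1 * z.1) v = (z.1 * k.1) v := fun v => by
      rw [← Subgroup.coe_mul, ← Subgroup.coe_mul, h2]
    have h4 := h3 ((ofO z.1 (E_le_O z.2)).1⁻¹ v)
    have h5 : z.1 ((ofO z.1 (E_le_O z.2)).1⁻¹ v) = v := (ofO z.1 (E_le_O z.2)).1.apply_symm_apply v
    have h6 : (k.1 * z.1) ((ofO z.1 (E_le_O z.2)).1⁻¹ v) = k.1 v := by
      rw [LinearEquiv.mul_apply, h5]
    rw [h6] at h4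
    exact h4.symm
  obtain ⟨a, -, ha⟩ := exists_scalar_of_conjE hG _ h1
  exact ⟨a, ha⟩

section main

variable (hG : Good Q) (hq : Good q) (hπ : ∀ u, π (j u) = u) (he : Emb Q q j) (h : Pr Q q j π)

include hG hq

theorem exists_perp [FiniteDimensional F V] [FiniteDimensional F U] (hd : finrank F U < finrank F V) :
    ∃ v : V, v ≠ 0 ∧ π v = 0 := by
  have h1 : ¬ Function.Injective π := by
    intro hi
    exact absurd (LinearMap.finrank_le_finrank_of_injective hi) (by omega)
  rw [← LinearMap.ker_eq_bot] at h1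
  obtain ⟨v, hv, hv0⟩ := (Submodule.ne_bot_iff _).1 h1
  exact ⟨v, hv0, LinearMap.mem_ker.1 hv⟩

/-- an element of `E q` whose extension is scalar -/
theorem eq_one_of_scal {v : V} (hv : v ≠ 0) (hπv : π v = 0) {g : U ≃ₗ[F] U} {k : V ≃ₗ[F] V} {a : F}
    (hk : ∀ x, ext hπ g x = a • k x) (hkv : k v = v) : ∀ x, ext hπ g x = k x := by
  have h1 := hk v
  rw [ext_apply, hπv, map_zero, sub_zero, map_zero, add_zero, hkv] at h1
  have ha : a = 1 := by
    have h2 : (1 - a) • v = 0 := by
      rw [sub_smul, one_smul, ← h1, sub_self]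
    rcases smul_eq_zero.1 h2 with h3 | h3
    · exact (sub_eq_zero.1 h3).symm
    · exact absurd h3 hv
  intro x
  rw [hk, ha, one_smul]

theorem fP_injective {v : V} (hv : v ≠ 0) (hπv : π v = 0) : Function.Injective (fP hπ he h) := by
  rw [injective_iff_map_eq_one]
  intro g hg
  have h1 : fE hπ he h g ∈ Subgroup.center ↥(E Q) := (QuotientGroup.eq_one_iff _).1 hg
  obtain ⟨a, ha⟩ := scal_of_center hG h1
  have h2 := eq_one_of_scal hG hq hπ hv hπv (g := g.1) (k := 1) (a := a) (fun x => ha x) rfl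
  apply Subtype.ext
  apply LinearEquiv.ext
  intro u
  have h3 := congrArg π (h2 (j u))
  rw [ext_j, hπ] at h3
  exact h3.trans (hπ u)

theorem qs_fP {v : V} (hv : v ≠ 0) (hπv : π v = 0) : QS (fP hπ he h).range := by
  have hs := good_isSimpleGroup hq
  refine QS.of_hom (fP hπ he h) (commutator_E hq) hs ?_
  intro hbot
  have h1 := (MonoidHom.range_eq_bot_iff).1 hbot
  obtain ⟨x, hx⟩ := exists_ne (1 : ↥(E q) ⧸ Subgroup.center ↥(E q))
  obtain ⟨g, rfl⟩ := QuotientGroup.mk_surjective x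
  apply hx
  have h2 : fP hπ he h g = fP hπ he h 1 := by rw [h1]; rfl
  rw [fP_injective hG hq hπ he h hv hπv h2]
  rfl

theorem not_normal {v : V} (hv : v ≠ 0) (hπv : π v = 0) (hadj : Pr Q q j π) : ¬ (fP hπ he h).range.Normal := by
  intro hn
  have hs := good_isSimpleGroup hG
  have htop : (fP hπ he h).range = ⊤ := by
    rcases hn.eq_bot_or_eq_top with h1 | h1
    · exact absurd h1 (qs_fP hG hq hπ he h hv hπv).ne
    · exact h1
  obtain ⟨u, hu0, hu⟩ := hq.sing
  have hju : Q (j u) = 0 := by rw [he.form, hu]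
  have hjv : polar Q (j u) v = 0 := by rw [polar_comm]; exact hadj.perp hπv u
  obtain ⟨y, hy⟩ := hG.nondeg.exists_polar_ne hv
  set y' := y - j (π y) with hy'
  have hπy' : π y' = 0 := by rw [hy', map_sub, hπ, sub_self]
  have hvy' : polar Q v y' ≠ 0 := by
    rw [hy', polar_sub_right, hadj.perp hπv, sub_zero]; exact hy
  have h1 : (QuotientGroup.mk (⟨siegel Q (j u) v hju hjv, siegel_mem_E hju hjv⟩ : ↥(E Q)) : P Q) ∈
      (fP hπ he h).range := by rw [htop]; exact Subgroup.mem_top _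
  obtain ⟨g, hg⟩ := h1
  have h2 : (fE hπ he h g)⁻¹ * ⟨siegel Q (j u) v hju hjv, siegel_mem_E hju hjv⟩ ∈ Subgroup.center ↥(E Q) :=
    QuotientGroup.eq.1 hg
  obtain ⟨a, ha⟩ := scal_of_center hG h2
  have h3 : siegel Q (j u) v hju hjv y' = a • y' := by
    have h4 := congrArg (fE hπ he h g).1 (ha y')
    rw [map_smul] at h4
    have h5 : (fE hπ he h g).1 y' = y' := by
      rw [coe_fE, ext_apply, hπy', map_zero, sub_zero, map_zero, add_zero]
    rw [h5] at h4
    rw [← h4]
    show _ = (fE hπ he h g).1 ((fE hπ he h g).1.symm _)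
    rw [LinearEquiv.apply_symm_apply]
    rfl
  rw [siegel_apply] at h3
  have h6 := congrArg π h3
  have h7 : polar Q (j u) y' = 0 := by rw [polar_comm]; exact hadj.perp hπy' u
  rw [h7, mul_zero, zero_smul, zero_smul, add_zero, sub_zero, map_sub, map_smul, map_smul, hπy', hπ,
    zero_sub, smul_zero, neg_eq_zero, smul_eq_zero] at h6
  rcases h6 with h6 | h6
  · exact hvy' h6
  · exact hu0 h6

/-- the action of a semisimilitude preserving the subspace -/
theorem Psi_fP (X : Gam Q) (x' : Gam q) (hX : Cov j X.1 x'.1) {σ : F ≃+* F} {c : F} (hXs : IsSS Q σ c X.1)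
    (hxs : IsSS q σ c x'.1) (g : ↥(E q)) : Psi Q X (fP hπ he h g) = fP hπ he h (conjE q x' g) := by
  have hadj : ∀ v, π (X.1 v) = x'.1 (π v) := by
    intro v
    rw [← sub_eq_zero]
    apply hq.nondeg
    intro u
    obtain ⟨u, rfl⟩ := x'.1.surjective u
    rw [polar_sub_left, h.adj, ← hX, hXs.polar, hxs.polar, h.adj, sub_self]
  have h1 : conjE Q X (fE hπ he h g) = fE hπ he h (conjE q x' g) := by
    apply Subtype.ext
    apply LinearEquiv.ext
    intro v
    obtain ⟨v, rfl⟩ := X.1.surjective v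
    rw [coe_conjE, conjLin_apply', coe_fE, coe_fE, ext_apply, ext_apply, hadj, coe_conjE, conjLin_apply',
      ← hxs.sub, hXs.add, hX]
  show Psi Q X (QuotientGroup.mk (fE hπ he h g)) = QuotientGroup.mk (fE hπ he h (conjE q x' g))
  rw [Psi_mk, h1]

theorem lp_fP {v : V} (hv : v ≠ 0) (hπv : π v = 0) (X : Gam Q) (x' : Gam q) (hX : Cov j X.1 x'.1)
    {σ : F ≃+* F} {c : F} (hXs : IsSS Q σ c X.1) (hxs : IsSS q σ c x'.1) (hns : ¬ IsScal F x'.1) :
    LP (fP hπ he h).range (Psi Q X) := by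
  refine ⟨?_, ?_⟩
  · rintro _ ⟨g, rfl⟩
    rw [Psi_fP hG hq hπ he h X x' hX hXs hxs]
    exact ⟨_, rfl⟩
  · by_contra hno
    push Not at hno
    apply hns
    have h1 : conjE q x' = 1 := by
      ext1 g
      have h2 := hno _ ⟨g, rfl⟩
      rw [Psi_fP hG hq hπ he h X x' hX hXs hxs] at h2
      exact fP_injective hG hq hπ he h hv hπv h2
    obtain ⟨a, -, ha⟩ := exists_scalar_of_conjE hq x' h1
    exact ⟨a, ha⟩

end main

end Cfsg.Agent.H313.WfOm
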