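import Cfsg.Agent.H313.WfOm.Comp
import Cfsg.Agent.H862.T5.OMain

/-!
# Six-dimensional frames of maps of order three (helper313, task 4025)

`N F` : the binary form `x² - xy + y²`; `q6 F` : the orthogonal sum of three copies.
`Fr Q q x` : `x` preserves the image of an isometric embedding of `q` and is not scalar on it.
`fr_lin`, `fr_nl` : the normalised semisimilitudes of order three have such a frame.
-/

set_option autoImplicit false
set_option linter.unusedSectionVars false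

namespace Cfsg.Agent.H313.WfOm

open QuadraticMap Module Cfsg.Agent.LieClassical.OrthCore Cfsg.Agent.LieClassical.OrthTrans
open Cfsg.Agent.ClassicalGeometry.OrthSemi Cfsg.Agent.ClassicalGeometry.OrthAut1 Cfsg.Agent.H966.Frob
open Cfsg.Agent.LieClassical.QuadForms
open Cfsg.Agent.H862.T5.OBase Cfsg.Agent.H862.T5.OFrame
open Cfsg.Agent.H957.T5V
open Cfsg.Agent.H208.Parity (ofO)
open Cfsg.Agent.H951 (Nd)

variable {F V U : Type*} [Field F] [AddCommGroup V] [Module F V] [AddCommGroup U] [Module F U]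
  {Q : QuadraticForm F V} {q : QuadraticForm F U} {j : U →ₗ[F] V}

/-- `x² - xy + y²` -/
abbrev N (F : Type*) [Field F] : QuadraticForm F (Fin 2 → F) := binForm F (-1) 1

theorem N_apply (z : Fin 2 → F) : N F z = z 0 ^ 2 - z 0 * z 1 + z 1 ^ 2 := by
  rw [binForm_apply]; ring

theorem polar_N (z w : Fin 2 → F) :
    polar (N F) z w = 2 * (z 0 * w 0) - (z 0 * w 1 + z 1 * w 0) + 2 * (z 1 * w 1) := by
  rw [polar_binForm]; ring

theorem nondeg_N (h3 : (3 : F) ≠ 0) : Nondeg (N F) := by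
  intro z hz
  have h1 := hz ![1, 0]
  have h2 := hz ![0, 1]
  rw [polar_N] at h1 h2
  simp at h1 h2
  have h4 : (3 : F) * z 0 = 0 := by linear_combination 2 * h1 + h2
  have h5 : (3 : F) * z 1 = 0 := by linear_combination 2 * h2 + h1
  funext i
  fin_cases i
  · exact (mul_eq_zero.1 h4).resolve_left h3
  · exact (mul_eq_zero.1 h5).resolve_left h3

/-- the norm form represents everything -/
theorem exists_N [Finite F] (h3 : (3 : F) ≠ 0) (c : F) : ∃ z : Fin 2 → F, N F z = c := by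
  have := Fintype.ofFinite F
  by_cases h2 : (2 : F) = 0
  · have hch : ringChar F = 2 := by
      have h3 : CharP F 2 := CharTwo.of_one_ne_zero_of_two_eq_zero one_ne_zero h2
      exact ringChar.eq F 2 ▸ rfl
    obtain ⟨a, ha⟩ := FiniteField.isSquare_of_char_two hch c
    refine ⟨![a, 0], ?_⟩
    rw [N_apply]
    simp only [Matrix.cons_val_zero, Matrix.cons_val_one]
    rw [ha]; ring
  · have hodd : Fintype.card F % 2 = 1 := by
      rcases Nat.mod_two_eq_zero_or_one (Fintype.card F) with h | h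
      · exfalso
        apply h2
        have h3 := FiniteField.even_card_iff_char_two.2 h
        have h4 : ((ringChar F : ℕ) : F) = 0 := ringChar.Nat.cast_ringChar
        rw [h3] at h4
        exact_mod_cast h4
      · exact h
    obtain ⟨a, b, hab⟩ := FiniteField.exists_root_sum_quadratic (R := F) (f := Polynomial.X ^ 2)
      (g := Polynomial.C (3 : F) * Polynomial.X ^ 2 - Polynomial.C (4 * c)) (Polynomial.degree_X_pow 2)
      (by
        rw [Polynomial.degree_sub_C]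
        · rw [Polynomial.degree_C_mul h3, Polynomial.degree_X_pow]; rfl
        · rw [Polynomial.degree_C_mul h3, Polynomial.degree_X_pow]; decide) hodd
    simp only [Polynomial.eval_pow, Polynomial.eval_X, Polynomial.eval_sub, Polynomial.eval_mul,
      Polynomial.eval_C] at hab
    refine ⟨![(a + b) / 2, b], ?_⟩
    rw [N_apply]
    simp only [Matrix.cons_val_zero, Matrix.cons_val_one]
    field_simp
    linear_combination hab

/-- the embedding of a plane -/
def jN (v w : V) : (Fin 2 → F) →ₗ[F] V :=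
  (LinearMap.proj 0 : (Fin 2 → F) →ₗ[F] F).smulRight v + (LinearMap.proj 1 : (Fin 2 → F) →ₗ[F] F).smulRight w

theorem jN_apply (v w : V) (z : Fin 2 → F) : jN v w z = z 0 • v + z 1 • w := rfl

theorem emb_jN {v w : V} (hv : Q v = 1) (hw : Q w = 1) (hvw : polar Q v w = -1) : Emb Q (N F) (jN v w) := by
  refine ⟨fun z => ?_⟩
  rw [jN_apply, Q_add, QuadraticMap.map_smul, QuadraticMap.map_smul, polar_smul_left, polar_smul_right, hv, hw,
    hvw, N_apply]
  simp only [smul_eq_mul]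
  ring

/-- the orbit relation of a moved plane -/
theorem polar_of_sum {g : V ≃ₗ[F] V} (hg : g ∈ O Q) {v : V} (hv : v + g v + g (g v) = 0) :
    polar Q v (g v) = -Q v := by
  have h1 : Q (v + g v) = Q v := by
    have h2 : v + g v = -g (g v) := by rw [← add_eq_zero_iff_eq_neg]; exact hv
    rw [h2, QuadraticMap.map_neg, hg, hg]
  rw [Q_add, hg] at h1
  linear_combination h1

/-- **moved planes** -/
theorem exists_moved [Finite F] (h3 : (3 : F) ≠ 0) {g : V ≃ₗ[F] V} (hg : g ∈ O Q) (hg3 : g ^ 3 = 1)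
    {Y : Submodule F V} (hY : Nd (BB Q) Y) (hinv : ∀ y ∈ Y, g y ∈ Y) {y : V} (hy : y ∈ Y) (hne : g y ≠ y) :
    ∃ v ∈ Y, Q v = 1 ∧ v + g v + g (g v) = 0 := by
  have hg3' : ∀ v, g (g (g v)) = v := fun v => by
    have : (g ^ 3) v = v := by rw [hg3]; rfl
    rwa [pow_succ, pow_two, LinearEquiv.mul_apply, LinearEquiv.mul_apply] at this
  set v₀ := g y - y with hv₀
  have hv₀Y : v₀ ∈ Y := Y.sub_mem (hinv y hy) hy
  have hv₀0 : v₀ ≠ 0 := sub_ne_zero.2 hne
  have hv₀s : v₀ + g v₀ + g (g v₀) = 0 := by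
    rw [hv₀, map_sub, map_sub, hg3']
    abel
  obtain ⟨z, hz, hvz⟩ := hY v₀ hv₀Y hv₀0
  rw [BB_apply] at hvz
  -- the moved part of `z`
  set z₁ := (3 : F) • z - (z + g z + g (g z)) with hz₁
  have hz₁Y : z₁ ∈ Y := Y.sub_mem (Y.smul_mem _ hz) (Y.add_mem (Y.add_mem hz (hinv z hz)) (hinv _ (hinv z hz)))
  have hz₁s : z₁ + g z₁ + g (g z₁) = 0 := by
    rw [hz₁]
    simp only [map_sub, map_add, map_smul, hg3']
    module
  have hfix : polar Q v₀ (z + g z + g (g z)) = 0 := by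
    set s := z + g z + g (g z) with hs
    have hgs : g s = s := by
      rw [hs, map_add, map_add, hg3']
      abel
    rw [hv₀, polar_sub_left]
    have : polar Q (g y) s = polar Q y s := by
      conv_lhs => rw [← hgs]
      exact polar_map hg y s
    rw [this, sub_self]
  have hvz₁ : polar Q v₀ z₁ ≠ 0 := by
    rw [hz₁, polar_sub_right, hfix, sub_zero, polar_smul_right, smul_eq_mul]
    exact mul_ne_zero h3 hvz
  obtain ⟨v₁, hv₁Y, hv₁s, hv₁⟩ : ∃ v₁ ∈ Y, v₁ + g v₁ + g (g v₁) = 0 ∧ Q v₁ ≠ 0 := by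
    by_cases h1 : Q v₀ = 0
    · by_cases h2 : Q z₁ = 0
      · refine ⟨v₀ + z₁, Y.add_mem hv₀Y hz₁Y, ?_, ?_⟩
        · rw [map_add, map_add]
          calc v₀ + z₁ + (g v₀ + g z₁) + (g (g v₀) + g (g z₁)) =
              (v₀ + g v₀ + g (g v₀)) + (z₁ + g z₁ + g (g z₁)) := by abel
            _ = 0 := by rw [hv₀s, hz₁s, add_zero]
        · rw [Q_add, h1, h2, zero_add, zero_add]
          exact hvz₁
      · exact ⟨z₁, hz₁Y, hz₁s, h2⟩
    · exact ⟨v₀, hv₀Y, hv₀s, h1⟩
  obtain ⟨c, hc⟩ := exists_N h3 (Q v₁)⁻¹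
  refine ⟨c 0 • v₁ + c 1 • g v₁, Y.add_mem (Y.smul_mem _ hv₁Y) (Y.smul_mem _ (hinv _ hv₁Y)), ?_, ?_⟩
  · rw [Q_add, QuadraticMap.map_smul, QuadraticMap.map_smul, polar_smul_left, polar_smul_right, hg,
      polar_of_sum hg hv₁s]
    rw [N_apply] at hc
    simp only [smul_eq_mul]
    have h5 : (c 0 ^ 2 - c 0 * c 1 + c 1 ^ 2) * Q v₁ = 1 := by rw [hc]; exact inv_mul_cancel₀ hv₁
    linear_combination h5
  · simp only [map_add, map_smul]
    rw [hg3']
    have h6 : g (g v₁) = -(v₁ + g v₁) := by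
      rw [eq_neg_iff_add_eq_zero, ← hv₁s]; abel
    rw [h6]
    module

/-- **fixed planes** -/
theorem exists_fixed [Finite F] [FiniteDimensional F V] (h3 : (3 : F) ≠ 0) {Y : Submodule F V}
    (hY : Nd (BB Q) Y) (hd : 3 ≤ finrank F Y) :
    ∃ v ∈ Y, ∃ w ∈ Y, Q v = 1 ∧ Q w = 1 ∧ polar Q v w = -1 := by
  obtain ⟨i, hi⟩ := H193.QuadEmb.exists_emb 1 (nondeg_N h3) (nondeg_qr hY)
    (by rw [Module.finrank_fintype_fun_eq_card, Fintype.card_fin]) hd
  have he : Emb (qr Q Y) (N F) i := ⟨hi⟩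
  refine ⟨i ![1, 0], (i ![1, 0]).2, i ![0, 1], (i ![0, 1]).2, ?_, ?_, ?_⟩
  · have := hi ![1, 0]
    rw [N_apply] at this
    simpa using this
  · have := hi ![0, 1]
    rw [N_apply] at this
    simpa using this
  · rw [← polar_qr, he.polar, polar_N]
    simp

/-- **one step** -/
theorem exists_plane [Finite F] [FiniteDimensional F V] (h3 : (3 : F) ≠ 0) {g : V ≃ₗ[F] V} (hg : g ∈ O Q)
    (hg3 : g ^ 3 = 1) {Y : Submodule F V} (hY : Nd (BB Q) Y) (hinv : ∀ y ∈ Y, g y ∈ Y) (hd : 3 ≤ finrank F Y) :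
    ∃ i : (Fin 2 → F) →ₗ[F] V, Emb Q (N F) i ∧ (∀ z, i z ∈ Y) ∧ (∀ z, ∃ z', g (i z) = i z') ∧
      ((∃ y ∈ Y, g y ≠ y) → ∃ z, g (i z) ≠ i z) := by
  by_cases hm : ∃ y ∈ Y, g y ≠ y
  · obtain ⟨y, hy, hne⟩ := hm
    obtain ⟨v, hv, hQv, hs⟩ := exists_moved h3 hg hg3 hY hinv hy hne
    have he : Emb Q (N F) (jN v (g v)) := emb_jN hQv (by rw [hg, hQv]) (by rw [polar_of_sum hg hs, hQv])
    refine ⟨jN v (g v), he, fun z => ?_, fun z => ⟨![-z 1, z 0 - z 1], ?_⟩, fun _ => ⟨![1, 0], ?_⟩⟩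
    · rw [jN_apply]
      exact Y.add_mem (Y.smul_mem _ hv) (Y.smul_mem _ (hinv _ hv))
    · rw [jN_apply, jN_apply, map_add, map_smul, map_smul]
      have h6 : g (g v) = -(v + g v) := by
        rw [eq_neg_iff_add_eq_zero, ← hs]; abel
      rw [h6]
      simp only [Matrix.cons_val_zero, Matrix.cons_val_one]
      module
    · rw [jN_apply]
      simp only [Matrix.cons_val_zero, Matrix.cons_val_one, one_smul, zero_smul, add_zero]
      intro h
      rw [h, h] at hs
      have h7 : (3 : F) • v = 0 := by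
        rw [← hs]; module
      rcases smul_eq_zero.1 h7 with h8 | h8
      · exact h3 h8
      · rw [h8, QuadraticMap.map_zero] at hQv
        exact zero_ne_one hQv
  · push Not at hm
    obtain ⟨v, hv, w, hw, h1, h2, h12⟩ := exists_fixed h3 hY hd
    refine ⟨jN v w, emb_jN h1 h2 h12, fun z => ?_, fun z => ⟨z, ?_⟩, fun ⟨y, hy, hne⟩ => absurd (hm y hy) hne⟩
    · rw [jN_apply]
      exact Y.add_mem (Y.smul_mem _ hv) (Y.smul_mem _ hw)
    · apply hm
      rw [jN_apply]
      exact Y.add_mem (Y.smul_mem _ hv) (Y.smul_mem _ hw)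

/-- **the complement** -/
theorem exists_compl [FiniteDimensional F V] (h3 : (3 : F) ≠ 0) {g : V ≃ₗ[F] V} (hg : g ∈ O Q)
    (hg3 : g ^ 3 = 1) {Y : Submodule F V} (hY : Nd (BB Q) Y) (hinv : ∀ y ∈ Y, g y ∈ Y)
    {i : (Fin 2 → F) →ₗ[F] V} (hi : Emb Q (N F) i) (hiY : ∀ z, i z ∈ Y) (hig : ∀ z, ∃ z', g (i z) = i z') :
    ∃ Y' : Submodule F V, Nd (BB Q) Y' ∧ (∀ y ∈ Y', g y ∈ Y') ∧ (∀ y ∈ Y', ∀ z, polar Q (i z) y = 0) ∧
      Y' ≤ Y ∧ finrank F Y ≤ finrank F Y' + 2 := by
  have hg3' : ∀ v, g (g (g v)) = v := fun v => by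
    have : (g ^ 3) v = v := by rw [hg3]; rfl
    rwa [pow_succ, pow_two, LinearEquiv.mul_apply, LinearEquiv.mul_apply] at this
  obtain ⟨π, hπ⟩ := exists_pr (Q := Q) (j := i) (nondeg_N h3)
  have hl := hπ.left hi (nondeg_N h3)
  refine ⟨Y ⊓ LinearMap.ker π, ?_, ?_, ?_, inf_le_left, ?_⟩
  · rintro u ⟨hu, hu'⟩ hu0
    obtain ⟨v, hv, huv⟩ := hY u hu hu0
    rw [BB_apply] at huv
    refine ⟨v - i (π v), ⟨Y.sub_mem hv (hiY _), ?_⟩, ?_⟩
    · show v - i (π v) ∈ LinearMap.ker π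
      rw [LinearMap.mem_ker, map_sub, hl, sub_self]
    · rw [BB_apply, polar_sub_right, hπ.perp (LinearMap.mem_ker.1 hu'), sub_zero]
      exact huv
  · rintro y ⟨hy, hy'⟩
    refine ⟨hinv y hy, ?_⟩
    show g y ∈ LinearMap.ker π
    rw [LinearMap.mem_ker]
    apply nondeg_N h3
    intro z
    rw [hπ.adj]
    obtain ⟨z', hz'⟩ := hig z
    obtain ⟨z'', hz''⟩ := hig z'
    have h1 : i z = g (i z'') := by rw [← hz'', ← hz', hg3']
    rw [h1, polar_map hg]
    exact hπ.perp (LinearMap.mem_ker.1 hy') _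
  · rintro y ⟨hy, hy'⟩ z
    rw [polar_comm]
    exact hπ.perp (LinearMap.mem_ker.1 hy') z
  · have h1 := LinearMap.finrank_range_add_finrank_ker (π.domRestrict Y)
    have h2 : finrank F (LinearMap.range (π.domRestrict Y)) ≤ 2 := by
      refine (Submodule.finrank_le _).trans ?_
      rw [Module.finrank_fintype_fun_eq_card, Fintype.card_fin]
    have h4 : (LinearMap.ker (π.domRestrict Y)).map Y.subtype = Y ⊓ LinearMap.ker π := by
      ext v
      constructor
      · rintro ⟨y, hy, rfl⟩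
        exact ⟨y.2, hy⟩
      · rintro ⟨hv, hv'⟩
        exact ⟨⟨v, hv⟩, hv', rfl⟩
    have h5 := Submodule.finrank_map_subtype_eq Y (LinearMap.ker (π.domRestrict Y))
    rw [h4] at h5
    omega

/-! ### the six-dimensional form -/

/-- the coordinates of the `i`-th plane -/
def co (F : Type*) [Field F] (i : Fin 3) : (Fin 3 × Fin 2 → F) →ₗ[F] (Fin 2 → F) := LinearMap.funLeft F F fun k => (i, k)

theorem co_apply (i : Fin 3) (x : Fin 3 × Fin 2 → F) (k : Fin 2) : co F i x k = x (i, k) := rfl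

/-- the orthogonal sum of three norm forms -/
def q6 (F : Type*) [Field F] : QuadraticForm F (Fin 3 × Fin 2 → F) := ∑ i : Fin 3, (N F).comp (co F i)

theorem q6_apply (x : Fin 3 × Fin 2 → F) : q6 F x = ∑ i : Fin 3, N F (co F i x) := by
  simp [q6]

theorem polar_q6 (x y : Fin 3 × Fin 2 → F) : polar (q6 F) x y = ∑ i : Fin 3, polar (N F) (co F i x) (co F i y) := by
  simp only [polar, q6_apply, map_add, ← Finset.sum_sub_distrib]

theorem nondeg_q6 (h3 : (3 : F) ≠ 0) : Nondeg (q6 F) := by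
  intro x hx
  have key : ∀ i, co F i x = 0 := by
    intro i
    apply nondeg_N h3
    intro z
    have h1 := hx fun p => if p.1 = i then z p.2 else 0
    rw [polar_q6, Finset.sum_eq_single i] at h1
    · convert h1 using 2
      funext k
      rw [co_apply]
      simp
    · intro l _ hl
      have : co F l (fun p => if p.1 = i then z p.2 else 0) = 0 := by
        funext k
        rw [co_apply]
        simp [hl]
      rw [this]
      simp [polar]
    · intro h
      exact absurd (Finset.mem_univ i) h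
  funext ⟨i, k⟩
  have := congrFun (key i) k
  rwa [co_apply] at this

theorem finrank_q6 : finrank F (Fin 3 × Fin 2 → F) = 6 := by
  rw [Module.finrank_fintype_fun_eq_card, Fintype.card_prod, Fintype.card_fin, Fintype.card_fin]

theorem good_q6 [Finite F] (h3 : (3 : F) ≠ 0) : Good (q6 F) :=
  Cfsg.Agent.LieClassical.OrthFinite.good_of_finite (nondeg_q6 h3) (by rw [finrank_q6]; norm_num)

/-- the sum of three orthogonal embeddings -/
def sum3 (i : Fin 3 → ((Fin 2 → F) →ₗ[F] V)) : (Fin 3 × Fin 2 → F) →ₗ[F] V := ∑ k : Fin 3, i k ∘ₗ co F k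

theorem sum3_apply (i : Fin 3 → ((Fin 2 → F) →ₗ[F] V)) (x : Fin 3 × Fin 2 → F) :
    sum3 i x = ∑ k : Fin 3, i k (co F k x) := by
  simp [sum3]

theorem emb_sum3 {i : Fin 3 → ((Fin 2 → F) →ₗ[F] V)} (hi : ∀ k, Emb Q (N F) (i k))
    (h01 : ∀ z z', polar Q (i 0 z) (i 1 z') = 0) (h02 : ∀ z z', polar Q (i 0 z) (i 2 z') = 0)
    (h12 : ∀ z z', polar Q (i 1 z) (i 2 z') = 0) : Emb Q (q6 F) (sum3 i) := by
  refine ⟨fun x => ?_⟩
  rw [sum3_apply, q6_apply, Fin.sum_univ_three, Fin.sum_univ_three, Q_add, Q_add, polar_add_left, (hi 0).form,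
    (hi 1).form, (hi 2).form, h01, h02, h12]
  ring

/-- `x` preserves the image of an isometric embedding of `q` and is not scalar on it. -/
def Fr (Q : QuadraticForm F V) (q : QuadraticForm F U) (x : Equiv.Perm V) : Prop :=
  ∃ (j : U →ₗ[F] V) (x' : Gam q), Emb Q q j ∧ Cov j x x'.1 ∧ ¬ IsScal F x'.1

/-- the restriction of a semisimilitude -/
theorem exists_res [Finite F] [FiniteDimensional F V] [FiniteDimensional F U] (hq : Nondeg q) (he : Emb Q q j)
    {σ : F ≃+* F} {c : F} {x : Equiv.Perm V} (hx : IsSS Q σ c x) (hinv : ∀ u, ∃ u', x (j u) = j u') :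
    ∃ x' : Gam q, Cov j x x'.1 ∧ IsSS q σ c x'.1 := by
  have hji := he.injective hq
  choose f hf using hinv
  have hfi : Function.Injective f := by
    intro a b hab
    apply hji
    apply x.injective
    rw [hf, hf, hab]
  have hfin : Finite U := Module.finite_of_finite F
  let x' : Equiv.Perm U := Equiv.ofBijective f (Finite.injective_iff_bijective.1 hfi)
  have hx' : ∀ u, x (j u) = j (x' u) := hf
  have hss : IsSS q σ c x' := by
    refine ⟨hx.ne, fun u v => ?_, fun a v => ?_, fun v => ?_⟩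
    · apply hji
      rw [← hx', map_add, hx.add, hx', hx', map_add]
    · apply hji
      rw [← hx', map_smul, hx.smul, hx', map_smul]
    · rw [← he.form, ← hx', hx.form, he.form]
  exact ⟨⟨x', σ, c, hss⟩, hx', hss⟩

/-- **linear maps** -/
theorem fr_lin [Finite F] [FiniteDimensional F V] (h3 : (3 : F) ≠ 0) (hQ : Nondeg Q) (h7 : 7 ≤ finrank F V)
    {g : V ≃ₗ[F] V} (hg : g ∈ O Q) (hg3 : g ^ 3 = 1) (hg1 : g ≠ 1) : Fr Q (q6 F) (toA g) := by
  have hmv : ∃ y ∈ (⊤ : Submodule F V), g y ≠ y := by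
    by_contra hno
    push Not at hno
    exact hg1 (LinearEquiv.ext fun v => hno v trivial)
  obtain ⟨i₀, he₀, -, hg₀, hm⟩ := exists_plane h3 hg hg3 (nd_top hQ) (fun _ _ => trivial)
    (by rw [finrank_top]; omega)
  obtain ⟨z, hz⟩ := hm hmv
  obtain ⟨Y₁, hY₁, hinv₁, hp₁, -, hd₁⟩ := exists_compl h3 hg hg3 (nd_top hQ) (fun _ _ => trivial) he₀
    (fun _ => trivial) hg₀
  rw [finrank_top] at hd₁
  obtain ⟨i₁, he₁, hm₁, hg₁, -⟩ := exists_plane h3 hg hg3 hY₁ hinv₁ (by omega)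
  obtain ⟨Y₂, hY₂, hinv₂, hp₂, hle, hd₂⟩ := exists_compl h3 hg hg3 hY₁ hinv₁ he₁ hm₁ hg₁
  obtain ⟨i₂, he₂, hm₂, hg₂, -⟩ := exists_plane h3 hg hg3 hY₂ hinv₂ (by omega)
  let i : Fin 3 → ((Fin 2 → F) →ₗ[F] V) := ![i₀, i₁, i₂]
  have he : Emb Q (q6 F) (sum3 i) := by
    refine emb_sum3 (fun k => ?_) (fun a b => hp₁ _ (hm₁ _) _) (fun a b => hp₁ _ (hle (hm₂ _)) _)
      (fun a b => hp₂ _ (hm₂ _) _)
    fin_cases k
    · exact he₀
    · exact he₁
    · exact he₂
  have hinv : ∀ k z, ∃ z', g (i k z) = i k z' := by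
    intro k
    fin_cases k
    · exact hg₀
    · exact hg₁
    · exact hg₂
  have hsum : ∀ x, ∃ x', toA g (sum3 i x) = sum3 i x' := by
    intro x
    choose f hf using hinv
    refine ⟨fun p => f p.1 (co F p.1 x) p.2, ?_⟩
    rw [toA_apply, sum3_apply, sum3_apply, map_sum]
    refine Finset.sum_congr rfl fun k _ => ?_
    rw [hf]
    rfl
  obtain ⟨x', hx', hss⟩ := exists_res (nondeg_q6 h3) he (ofO g hg).2.choose_spec.choose_spec hsum
  refine ⟨sum3 i, x', he, hx', ?_⟩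
  rintro ⟨a, ha⟩
  have hg3' : ∀ v, g (g (g v)) = v := fun v => by
    have : (g ^ 3) v = v := by rw [hg3]; rfl
    rwa [pow_succ, pow_two, LinearEquiv.mul_apply, LinearEquiv.mul_apply] at this
  -- the scalar is one
  have hga : ∀ x, g (sum3 i x) = a • sum3 i x := by
    intro x
    have h1 : g (sum3 i x) = sum3 i (x'.1 x) := hx' x
    rw [h1, ha, map_smul]
  obtain ⟨x, hx0, hxne⟩ : ∃ x, Q (sum3 i x) ≠ 0 ∧ sum3 i x ≠ 0 := by
    refine ⟨fun p => if p = (0, 0) then 1 else 0, ?_⟩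
    have h1 : Q (sum3 i (fun p : Fin 3 × Fin 2 => if p = (0, 0) then (1 : F) else 0)) = 1 := by
      rw [he.form, q6_apply, Fin.sum_univ_three]
      simp only [N_apply, co_apply]
      simp
    refine ⟨by rw [h1]; exact one_ne_zero, ?_⟩
    intro h0
    rw [h0, QuadraticMap.map_zero] at h1
    exact zero_ne_one h1
  have ha2 : a * a = 1 := by
    have h1 : Q (g (sum3 i x)) = Q (sum3 i x) := hg _
    rw [hga, QuadraticMap.map_smul, smul_eq_mul] at h1
    exact mul_right_cancel₀ hx0 (by rw [h1, one_mul])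
  have ha3 : a * (a * a) = 1 := by
    have h1 := hg3' (sum3 i x)
    rw [hga, map_smul, hga, map_smul, map_smul, hga, smul_smul, smul_smul] at h1
    have h2 : (a * (a * a) - 1) • sum3 i x = 0 := by
      rw [sub_smul, one_smul, sub_eq_zero, ← mul_assoc]
      exact h1
    rcases smul_eq_zero.1 h2 with h4 | h4
    · exact sub_eq_zero.1 h4
    · exact absurd h4 hxne
  have ha1 : a = 1 := by
    rw [ha2, mul_one] at ha3
    exact ha3
  apply hz
  have h5 := hga (fun p => if p.1 = 0 then z p.2 else 0)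
  rw [ha1, one_smul] at h5
  have h6 : sum3 i (fun p : Fin 3 × Fin 2 => if p.1 = 0 then z p.2 else 0) = i₀ z := by
    rw [sum3_apply, Finset.sum_eq_single 0]
    · have : co F 0 (fun p : Fin 3 × Fin 2 => if p.1 = 0 then z p.2 else 0) = z := by
        funext k
        rw [co_apply]
        simp
      rw [this]
      rfl
    · intro l _ hl
      have : co F l (fun p : Fin 3 × Fin 2 => if p.1 = 0 then z p.2 else 0) = 0 := by
        funext k
        rw [co_apply]
        simp [hl]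
      rw [this, map_zero]
    · intro h
      exact absurd (Finset.mem_univ _) h
  rwa [h6] at h5

/-! ### nonlinear maps -/

theorem N_jN (c z : Fin 2 → F) : N F (jN ![c 0, c 1] ![-c 1, c 0 - c 1] z) = N F c * N F z := by
  rw [N_apply, N_apply, N_apply, jN_apply]
  simp
  ring

/-- multiplication by a vector of norm `e⁻¹` -/
def nu (c : Fin 2 → F) : (Fin 3 × Fin 2 → F) →ₗ[F] (Fin 3 × Fin 2 → F) :=
  LinearMap.pi fun p => (LinearMap.proj p.2 : (Fin 2 → F) →ₗ[F] F) ∘ₗ jN ![c 0, c 1] ![-c 1, c 0 - c 1] ∘ₗ co F p.1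

theorem co_nu (c : Fin 2 → F) (x : Fin 3 × Fin 2 → F) (i : Fin 3) :
    co F i (nu c x) = jN ![c 0, c 1] ![-c 1, c 0 - c 1] (co F i x) := rfl

theorem q6_nu (c : Fin 2 → F) (x : Fin 3 × Fin 2 → F) : q6 F (nu c x) = N F c * q6 F x := by
  rw [q6_apply, q6_apply, Finset.mul_sum]
  refine Finset.sum_congr rfl fun i _ => ?_
  rw [co_nu, N_jN]

theorem q6_inc (K : Subfield F) (x : Fin 3 × Fin 2 → K) : q6 F (inc K x) = (q6 K x : F) := by
  rw [q6_apply, q6_apply]
  push_cast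
  refine Finset.sum_congr rfl fun i _ => ?_
  rw [N_apply, N_apply]
  push_cast
  rfl

/-- **nonlinear maps** -/
theorem fr_nl [Finite F] [FiniteDimensional F V] (h3 : (3 : F) ≠ 0) (hQ : Nondeg Q) (h7 : 7 ≤ finrank F V)
    {σ : F ≃+* F} (hσ1 : σ ≠ 1) (hσ : orderOf σ = 3) {c : F} {M : Equiv.Perm V} (hM : IsSS Q σ c M)
    (hM3 : M ^ 3 = 1) : Fr Q (q6 F) M := by
  have : Nontrivial V := Module.nontrivial_of_finrank_pos (R := F) (by omega)
  have h3' : (3 : H966.Frob.fix σ) ≠ 0 := by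
    intro h
    apply h3
    have := congrArg (Subtype.val : H966.Frob.fix σ → F) h
    push_cast at this
    exact this
  obtain ⟨j, e, he, hj, hjM⟩ := H862.T5.ONonlin.exists_frame_nl hQ hM hσ (by norm_num) hM3
    (κ' := Fin 3 × Fin 2) (k := 3) (by simp) (by omega) (nondeg_q6 h3') (P := q6 F) (fun x => q6_inc _ x)
  obtain ⟨d, hd⟩ := exists_N h3 e⁻¹
  have hemb : Emb Q (q6 F) (j ∘ₗ nu d) := ⟨fun x => by
    rw [LinearMap.comp_apply, hj, q6_nu, hd, ← mul_assoc, mul_inv_cancel₀ he, one_mul]⟩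
  have hsurj : Function.Surjective (nu d) := by
    rw [← LinearMap.injective_iff_surjective]
    intro x y hxy
    apply hemb.injective (nondeg_q6 h3)
    rw [LinearMap.comp_apply, LinearMap.comp_apply, hxy]
  obtain ⟨x', hx', hss⟩ := exists_res (nondeg_q6 h3) hemb hM (fun x => by
    obtain ⟨y, hy⟩ := hsurj (frob _ σ (nu d x))
    exact ⟨y, by rw [LinearMap.comp_apply, LinearMap.comp_apply, hy, hjM]⟩)
  exact ⟨_, x', hemb, hx', H862.T5.ONonlin.not_isScal_of_semi hσ1 ⟨hss.add, hss.smul⟩⟩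

end Cfsg.Agent.H313.WfOm
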